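import Cfsg.Agent.Lib.Helper58.SlSyl.Defs
import Cfsg.Agent.Lib.Helper98.WrSyl.EBase

set_option autoImplicit false

namespace Cfsg.Agent.Lib.Helper28.SlSyl

open Cfsg Cfsg.Agent.Lib.Helper58.WrSyl Cfsg.Agent.Lib.Helper98.WrSyl
open Cfsg.Agent.Lib.Helper58.SlSyl
open scoped MatrixGroups

theorem wm_one_perm {F : Type*} [Field F] {κ : Type*} [Fintype κ] [DecidableEq κ] {n : ℕ}
    (b : Fin n → Matrix κ κ F) : wm b 1 = Matrix.blockDiagonal b := by
  ext p q
  rw [wm_apply, Matrix.blockDiagonal_apply]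
  rfl

theorem wm_perm {F : Type*} [Field F] {κ : Type*} [Fintype κ] [DecidableEq κ] {n : ℕ}
    (σ : Equiv.Perm (Fin n)) :
    wm (fun _ => (1 : Matrix κ κ F)) σ =
      ((Equiv.prodCongrRight (fun _ : κ => σ⁻¹)).toPEquiv.toMatrix :
        Matrix (κ × Fin n) (κ × Fin n) F) := by
  ext ⟨a, i⟩ ⟨c, j⟩
  rw [wm_apply, PEquiv.toMatrix_apply, Equiv.toPEquiv_apply]
  simp only [Option.mem_def, Option.some.injEq, Matrix.one_apply]
  by_cases h : i = σ j
  · subst h
    by_cases h' : a = c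
    · subst h'
      simp [Equiv.prodCongrRight]
    · simp [Equiv.prodCongrRight, h']
  · have h2 : ¬ (Equiv.symm σ) i = j := by
      intro h3
      apply h
      rw [← h3]
      simp
    simp [Equiv.prodCongrRight, h, h2]

/-- [DT] determinant of a block monomial matrix -/
theorem det_wm {F : Type*} [Field F] {κ : Type*} [Fintype κ] [DecidableEq κ] {n : ℕ}
    (b : Fin n → Matrix κ κ F) (σ : Equiv.Perm (Fin n)) :
    (wm b σ).det = ((Equiv.Perm.sign σ : ℤ) : F) ^ Fintype.card κ * ∏ i, (b i).det := by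
  have h : wm b σ = wm b 1 * wm (fun _ => (1 : Matrix κ κ F)) σ := by
    rw [wm_mul]
    simp
  rw [h, Matrix.det_mul, wm_one_perm, Matrix.det_blockDiagonal, wm_perm, Matrix.det_permutation,
    Equiv.Perm.sign_prodCongrRight, mul_comm]
  congr 1
  simp [Finset.prod_const, Finset.card_univ]

end Cfsg.Agent.Lib.Helper28.SlSyl
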