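import Cfsg.Agent.Lib.Helper58.SlSyl.Defs

set_option autoImplicit false

namespace Cfsg.Agent.Lib.Helper28.SlSyl

open scoped MatrixGroups

/-- [L1] -/
theorem sl_equiv_ker_det {F : Type*} [Field F] (n : ℕ) :
    Nonempty (Matrix.SpecialLinearGroup (Fin n) F ≃*
      (Matrix.GeneralLinearGroup.det : GL (Fin n) F →* Fˣ).ker) := by
  have hr : (Matrix.SpecialLinearGroup.toGL :
      Matrix.SpecialLinearGroup (Fin n) F →* GL (Fin n) F).range =
      (Matrix.GeneralLinearGroup.det : GL (Fin n) F →* Fˣ).ker := by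
    ext x
    rw [MonoidHom.mem_range, MonoidHom.mem_ker]
    constructor
    · rintro ⟨y, rfl⟩
      apply Units.ext
      rw [Matrix.GeneralLinearGroup.val_det_apply, Matrix.SpecialLinearGroup.coe_GL_coe_matrix,
        Units.val_one]
      exact y.2
    · intro h
      have h1 : (x : Matrix (Fin n) (Fin n) F).det = 1 := by
        rw [← Matrix.GeneralLinearGroup.val_det_apply, h, Units.val_one]
      refine ⟨⟨(x : Matrix (Fin n) (Fin n) F), h1⟩, ?_⟩
      apply Units.ext
      rfl
  exact ⟨(MonoidHom.ofInjective Matrix.SpecialLinearGroup.toGL_injective).trans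
    (MulEquiv.subgroupCongr hr)⟩

end Cfsg.Agent.Lib.Helper28.SlSyl
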