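import Cfsg.Agent.Lib.Helper28.SlSyl.DT

set_option autoImplicit false

namespace Cfsg.Agent.Lib.Helper28.SlSyl

open Cfsg Cfsg.Agent.Lib.Helper58.WrSyl Cfsg.Agent.Lib.Helper98.WrSyl
open Cfsg.Agent.Lib.Helper58.SlSyl
open scoped MatrixGroups

/-- [L2a] -/
theorem exists_embed_gl_even_det {F : Type*} [Field F] (m : ℕ) :
    ∃ Φ : Wr (GL (Fin 2) F) m →* GL (Fin (2 * m)) F, Function.Injective Φ ∧
      ∀ w, Matrix.GeneralLinearGroup.det (Φ w) = ∏ i, Matrix.GeneralLinearGroup.det (w.left i) := by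
  refine ⟨((reHom finProdFinEquiv).comp (wmHom (Units.coeHom _) m)).toHomUnits, ?_, ?_⟩
  · apply toHomUnits_injective
    exact (reHom_injective _).comp (wmHom_injective _ (fun a b h => Units.ext h) m)
  · intro w
    apply Units.ext
    rw [Matrix.GeneralLinearGroup.val_det_apply, MonoidHom.coe_toHomUnits, MonoidHom.comp_apply,
      reHom_apply, Matrix.det_reindex_self, wmHom_apply, det_wm, Fintype.card_fin]
    have hs : ((Equiv.Perm.sign w.right : ℤ) : F) ^ 2 = 1 := by
      rcases Int.units_eq_one_or (Equiv.Perm.sign w.right) with h | h <;> simp [h]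
    rw [hs, one_mul, Units.coe_prod]
    rfl

end Cfsg.Agent.Lib.Helper28.SlSyl
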