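import Cfsg.Agent.Lib.Helper28.SlSyl.DT

set_option autoImplicit false

namespace Cfsg.Agent.Lib.Helper28.SlSyl

open Cfsg Cfsg.Agent.Lib.Helper58.WrSyl Cfsg.Agent.Lib.Helper98.WrSyl
open Cfsg.Agent.Lib.Helper58.SlSyl
open scoped MatrixGroups

/-- [L2b] -/
theorem exists_embed_mon_det {F : Type*} [Field F] (n : ℕ) :
    ∃ Φ : Wr Fˣ n →* GL (Fin n) F, Function.Injective Φ ∧
      ∀ w, Matrix.GeneralLinearGroup.det (Φ w) = sgnU F n w.right * ∏ i, w.left i := by
  refine ⟨((reHom (Equiv.punitProd (Fin n))).comp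
    (wmHom (((Matrix.scalar PUnit.{1}).toMonoidHom).comp (Units.coeHom F)) n)).toHomUnits, ?_, ?_⟩
  · apply toHomUnits_injective
    refine (reHom_injective _).comp (wmHom_injective _ (fun a b h => ?_) n)
    apply Units.ext
    exact Matrix.scalar_inj.1 h
  · intro w
    apply Units.ext
    rw [Matrix.GeneralLinearGroup.val_det_apply, MonoidHom.coe_toHomUnits, MonoidHom.comp_apply,
      reHom_apply, Matrix.det_reindex_self, wmHom_apply, det_wm, Fintype.card_punit, pow_one,
      Units.val_mul, Units.coe_prod]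
    congr 1
    apply Finset.prod_congr rfl
    intro i _
    simp

end Cfsg.Agent.Lib.Helper28.SlSyl
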